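import Cfsg.Agent.H891.TE6.Words

/-!
# `²E₆(2)`: certificates, part 0 (generated; helper891)
-/

set_option autoImplicit false

namespace Cfsg.Agent.H891.TE6.Eng

open Cfsg Cfsg.Lie


theorem c13_0_0 : chkOrd chevE6 (fgw (run M78 lX) (run M78 (lV 0 false false false)) 6 0) 13 = true := by
  decide +kernel

theorem c19_0_0 : chkOrd chevE6 (fgw (run M78 lX) (run M78 (lV 0 false false false)) 2 0) 19 = true := by
  decide +kernel

theorem c13_0_1 : chkOrd chevE6 (fgw (run M78 lX) (run M78 (lV 0 true false false)) 2 1) 13 = true := by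
  decide +kernel

theorem c19_0_1 : chkOrd chevE6 (fgw (run M78 lX) (run M78 (lV 0 true false false)) 4 2) 19 = true := by
  decide +kernel

theorem c13_0_2 : chkOrd chevE6 (fgw (run M78 lX) (run M78 (lV 0 false true false)) 3 1) 13 = true := by
  decide +kernel

theorem c19_0_2 : chkOrd chevE6 (fgw (run M78 lX) (run M78 (lV 0 false true false)) 5 1) 19 = true := by
  decide +kernel

theorem c13_0_3 : chkOrd chevE6 (fgw (run M78 lX) (run M78 (lV 0 true true false)) 10 3) 13 = true := by
  decide +kernel

theorem c19_0_3 : chkOrd chevE6 (fgw (run M78 lX) (run M78 (lV 0 true true false)) 3 1) 19 = true := by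
  decide +kernel

theorem c13_0_4 : chkOrd chevE6 (fgw (run M78 lX) (run M78 (lV 0 false false true)) 4 0) 13 = true := by
  decide +kernel

theorem c19_0_4 : chkOrd chevE6 (fgw (run M78 lX) (run M78 (lV 0 false false true)) 4 2) 19 = true := by
  decide +kernel

theorem c13_0_5 : chkOrd chevE6 (fgw (run M78 lX) (run M78 (lV 0 true false true)) 4 3) 13 = true := by
  decide +kernel

theorem c19_0_5 : chkOrd chevE6 (fgw (run M78 lX) (run M78 (lV 0 true false true)) 5 1) 19 = true := by
  decide +kernel

theorem c13_0_6 : chkOrd chevE6 (fgw (run M78 lX) (run M78 (lV 0 false true true)) 4 3) 13 = true := by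
  decide +kernel

theorem c19_0_6 : chkOrd chevE6 (fgw (run M78 lX) (run M78 (lV 0 false true true)) 5 1) 19 = true := by
  decide +kernel

theorem c13_0_7 : chkOrd chevE6 (fgw (run M78 lX) (run M78 (lV 0 true true true)) 4 0) 13 = true := by
  decide +kernel

theorem c19_0_7 : chkOrd chevE6 (fgw (run M78 lX) (run M78 (lV 0 true true true)) 4 2) 19 = true := by
  decide +kernel

end Cfsg.Agent.H891.TE6.Eng
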