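import Cfsg.Agent.H891.TE6.Words

/-!
# `²E₆(2)`: certificates, part 1 (generated; helper891)
-/

set_option autoImplicit false

namespace Cfsg.Agent.H891.TE6.Eng

open Cfsg Cfsg.Lie


theorem c13_1_0 : chkOrd chevE6 (fgw (run M78 lX) (run M78 (lV 1 false false false)) 5 1) 13 = true := by
  decide +kernel

theorem c19_1_0 : chkOrd chevE6 (fgw (run M78 lX) (run M78 (lV 1 false false false)) 1 0) 19 = true := by
  decide +kernel

theorem c13_1_1 : chkOrd chevE6 (fgw (run M78 lX) (run M78 (lV 1 true false false)) 3 2) 13 = true := by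
  decide +kernel

theorem c19_1_1 : chkOrd chevE6 (fgw (run M78 lX) (run M78 (lV 1 true false false)) 1 0) 19 = true := by
  decide +kernel

theorem c13_1_2 : chkOrd chevE6 (fgw (run M78 lX) (run M78 (lV 1 false true false)) 2 0) 13 = true := by
  decide +kernel

theorem c19_1_2 : chkOrd chevE6 (fgw (run M78 lX) (run M78 (lV 1 false true false)) 1 0) 19 = true := by
  decide +kernel

theorem c13_1_3 : chkOrd chevE6 (fgw (run M78 lX) (run M78 (lV 1 true true false)) 3 1) 13 = true := by
  decide +kernel

theorem c19_1_3 : chkOrd chevE6 (fgw (run M78 lX) (run M78 (lV 1 true true false)) 1 0) 19 = true := by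
  decide +kernel

theorem c13_1_4 : chkOrd chevE6 (fgw (run M78 lX) (run M78 (lV 1 false false true)) 3 2) 13 = true := by
  decide +kernel

theorem c19_1_4 : chkOrd chevE6 (fgw (run M78 lX) (run M78 (lV 1 false false true)) 6 3) 19 = true := by
  decide +kernel

theorem c13_1_5 : chkOrd chevE6 (fgw (run M78 lX) (run M78 (lV 1 true false true)) 9 3) 13 = true := by
  decide +kernel

theorem c19_1_5 : chkOrd chevE6 (fgw (run M78 lX) (run M78 (lV 1 true false true)) 13 1) 19 = true := by
  decide +kernel

theorem c13_1_6 : chkOrd chevE6 (fgw (run M78 lX) (run M78 (lV 1 false true true)) 8 1) 13 = true := by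
  decide +kernel

theorem c19_1_6 : chkOrd chevE6 (fgw (run M78 lX) (run M78 (lV 1 false true true)) 2 0) 19 = true := by
  decide +kernel

theorem c13_1_7 : chkOrd chevE6 (fgw (run M78 lX) (run M78 (lV 1 true true true)) 9 6) 13 = true := by
  decide +kernel

theorem c19_1_7 : chkOrd chevE6 (fgw (run M78 lX) (run M78 (lV 1 true true true)) 2 0) 19 = true := by
  decide +kernel

end Cfsg.Agent.H891.TE6.Eng
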