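import Cfsg.Agent.H891.TE6.Words

/-!
# `²E₆(2)`: certificates for `x'`, `x ^ 8`, `x' ^ 8` (helper891)
-/

set_option autoImplicit false

namespace Cfsg.Agent.H891.TE6.Eng

open Cfsg Cfsg.Lie

theorem p13_0 : chkOrd chevE6 (fgw (run M78 lP) (run M78 [l0]) 6 5) 13 = true := by decide +kernel

theorem p19_0 : chkOrd chevE6 (fgw (run M78 lP) (run M78 [l0]) 1 0) 19 = true := by decide +kernel

theorem p13_1 : chkOrd chevE6 (fgw (run M78 lP) (run M78 [l1]) 3 2) 13 = true := by decide +kernel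

theorem p19_1 : chkOrd chevE6 (fgw (run M78 lP) (run M78 [l1]) 2 0) 19 = true := by decide +kernel

theorem pow_P : chkEq chevE6 (itf (run M78 lP) 8) (run M78 [l71]) = true := by decide +kernel

theorem pow_X : chkEq chevE6 (itf (run M78 lX) 8) (run M78 [l68, l66, l71]) = true := by decide +kernel

/-- `x_5(ω ^ i) ≠ x_3(ω ^ {2i})` -/
theorem ne_53_0 : neqAt (run M78 [l5] 1) (run M78 [l3] 1) 72 = true := by decide +kernel

theorem ne_53_1 : neqAt (run M78 [l5w1] 1) (run M78 [l3w2] 1) 72 = true := by decide +kernel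

theorem ne_53_2 : neqAt (run M78 [l5w2] 1) (run M78 [l3w1] 1) 72 = true := by decide +kernel

theorem ne_E : neqAt (run M78 [l68, l66] 1) 1 9 = true := by decide +kernel

end Cfsg.Agent.H891.TE6.Eng
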