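import Cfsg.Agent.KFacts.TwESix.Btw
import Cfsg.Agent.KFacts.TwESix.CombRho

/-!
# The Weyl group elements `w` of type `F₄` with `w⁻¹ α_i < 0` or `w⁻¹ α_i = α_i` for all `i` (helper891)

* `w_cases` : `w = 1`, or `w ρ = -ρ`, or `w ρ = -(ρ - α_0)`, or `w` is the reflection in the highest short root
  (`ρ` the highest root).
-/

set_option autoImplicit false
set_option linter.unusedSectionVars false

namespace Cfsg.Agent.H891.TE6

open CoxeterSystem Cfsg.Agent.ChevalleyStructure.CoxeterGeom Cfsg.Agent.Tits.Roots Cfsg.Agent.Tits.Core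
  Cfsg.Agent.Nodes.RGDTwE6 Cfsg.Agent.KFacts.TwESix.Comb

/-- `ρ - α_0` -/
def rho1 : Fin 4 → ℤ := ![1, 3, 4, 2]

/-- the roots of heights 9, 8 -/
def rho2 : Fin 4 → ℤ := ![1, 2, 4, 2]

/-- the highest short root -/
def eh : Fin 4 → ℤ := ![1, 2, 3, 2]

/-- the images of `rho`, `rho1`, `rho2` under the reflection in `eh` are `-dt0`, `-dt1`, `-dt2` -/
def dt0 : Fin 4 → ℤ := ![0, 1, 2, 2]
def dt1 : Fin 4 → ℤ := ![1, 1, 2, 2]
def dt2 : Fin 4 → ℤ := ![1, 2, 2, 2]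

/-- linear combination of the columns -/
def lc (c0 c1 c2 c3 x : Fin 4 → ℤ) : Fin 4 → ℤ := x 0 • c0 + x 1 • c1 + x 2 • c2 + x 3 • c3

/-- the conclusion -/
def Good (c0 c1 c2 c3 : Fin 4 → ℤ) : Prop :=
  (lc c0 c1 c2 c3 c0 = sr 0 ∧ lc c0 c1 c2 c3 c1 = sr 1 ∧ lc c0 c1 c2 c3 c2 = sr 2 ∧ lc c0 c1 c2 c3 c3 = sr 3) ∧
  ((c0 = sr 0 ∧ c1 = sr 1 ∧ c2 = sr 2 ∧ c3 = sr 3) ∨ lc c0 c1 c2 c3 rho = -rho ∨ lc c0 c1 c2 c3 rho = -rho1 ∨
    (lc c0 c1 c2 c3 eh = -eh ∧ lc c0 c1 c2 c3 rho = -dt0 ∧ lc c0 c1 c2 c3 rho1 = -dt1 ∧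
      lc c0 c1 c2 c3 rho2 = -dt2))

instance (c0 c1 c2 c3 : Fin 4 → ℤ) : Decidable (Good c0 c1 c2 c3) := by unfold Good; infer_instance

/-- the candidates for the image of `α_i` -/
def cand (i : Fin 4) : List (Fin 4 → ℤ) :=
  rts.filter fun c => decide (bf c c = bf (sr i) (sr i)) && (decide (c = sr i) || decide (∀ k, c k ≤ 0))

set_option maxRecDepth 20000 in
theorem cand_good : ∀ c0 ∈ cand 0, ∀ c1 ∈ cand 1, bf c0 c1 = bf (sr 0) (sr 1) →
    ∀ c2 ∈ cand 2, bf c0 c2 = bf (sr 0) (sr 2) → bf c1 c2 = bf (sr 1) (sr 2) →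
    ∀ c3 ∈ cand 3, bf c0 c3 = bf (sr 0) (sr 3) → bf c1 c3 = bf (sr 1) (sr 3) → bf c2 c3 = bf (sr 2) (sr 3) →
    Good c0 c1 c2 c3 := by
  decide +kernel

variable {W : Type*} [Group W] (cs : CoxeterSystem CoxeterMatrix.F₄ W)

theorem rep_lc (w : W) (x : Fin 4 → ℤ) : rep cs isCartan w x =
    lc (rep cs isCartan w (sr 0)) (rep cs isCartan w (sr 1)) (rep cs isCartan w (sr 2)) (rep cs isCartan w (sr 3)) x := by
  have h : x = x 0 • sr 0 + x 1 • sr 1 + x 2 • sr 2 + x 3 • sr 3 := by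
    funext k
    fin_cases k <;> simp [sr]
  conv_lhs => rw [h]
  simp only [map_add, map_zsmul]
  rfl

theorem mem_cand {w : W} {i : Fin 4} (hi : rep cs isCartan w⁻¹ (sr i) ≤ 0 ∨ rep cs isCartan w⁻¹ (sr i) = sr i) :
    rep cs isCartan w⁻¹ (sr i) ∈ cand i := by
  unfold cand
  rw [List.mem_filter]
  refine ⟨(mem_rts cs).1 ((isRoot_sr cs isCartan i).act w⁻¹), ?_⟩
  rw [Bool.and_eq_true, Bool.or_eq_true, decide_eq_true_iff, decide_eq_true_iff, decide_eq_true_iff]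
  exact ⟨bf_rep cs w⁻¹ _ _, hi.symm.imp_right fun h k => h k⟩

theorem w_cases {w : W} (hw : ∀ i, rep cs isCartan w⁻¹ (sr i) ≤ 0 ∨ rep cs isCartan w⁻¹ (sr i) = sr i) :
    w = 1 ∨ rep cs isCartan w rho = -rho ∨ rep cs isCartan w rho = -rho1 ∨
      (rep cs isCartan w eh = -eh ∧ rep cs isCartan w rho = -dt0 ∧ rep cs isCartan w rho1 = -dt1 ∧
        rep cs isCartan w rho2 = -dt2) := by
  have hg := cand_good _ (mem_cand cs (hw 0)) _ (mem_cand cs (hw 1)) (bf_rep cs w⁻¹ _ _) _ (mem_cand cs (hw 2))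
    (bf_rep cs w⁻¹ _ _) (bf_rep cs w⁻¹ _ _) _ (mem_cand cs (hw 3)) (bf_rep cs w⁻¹ _ _) (bf_rep cs w⁻¹ _ _)
    (bf_rep cs w⁻¹ _ _)
  obtain ⟨hinv, hcase⟩ := hg
  -- `w` is an involution
  have h2 : ∀ i, rep cs isCartan w⁻¹ (rep cs isCartan w⁻¹ (sr i)) = sr i := by
    intro i
    rw [rep_lc cs w⁻¹ (rep cs isCartan w⁻¹ (sr i))]
    fin_cases i
    · exact hinv.1
    · exact hinv.2.1
    · exact hinv.2.2.1
    · exact hinv.2.2.2
  have h3 : ∀ i, rep cs isCartan w (sr i) = rep cs isCartan w⁻¹ (sr i) := by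
    intro i
    have := congrArg (rep cs isCartan w) (h2 i)
    rw [rep_apply_inv] at this
    exact this.symm
  have h4 : ∀ x, rep cs isCartan w x = lc (rep cs isCartan w⁻¹ (sr 0)) (rep cs isCartan w⁻¹ (sr 1))
      (rep cs isCartan w⁻¹ (sr 2)) (rep cs isCartan w⁻¹ (sr 3)) x := by
    intro x
    rw [rep_lc, h3, h3, h3, h3]
  rcases hcase with h | h | h | h
  · left
    have h5 : w⁻¹ = 1 := by
      apply eq_one_of_nonneg cs isCartan
      intro i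
      have : rep cs isCartan w⁻¹ (sr i) = sr i := by
        fin_cases i
        · exact h.1
        · exact h.2.1
        · exact h.2.2.1
        · exact h.2.2.2
      change 0 ≤ rep cs isCartan w⁻¹ (sr i)
      rw [this]
      exact sr_nonneg i
    exact inv_eq_one.1 h5
  · exact Or.inr (Or.inl (by rw [h4]; exact h))
  · exact Or.inr (Or.inr (Or.inl (by rw [h4]; exact h)))
  · exact Or.inr (Or.inr (Or.inr ⟨by rw [h4]; exact h.1, by rw [h4]; exact h.2.1, by rw [h4]; exact h.2.2.1,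
      by rw [h4]; exact h.2.2.2⟩))

end Cfsg.Agent.H891.TE6
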