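import Cfsg.Agent.H891.UL.Disp
import Cfsg.Agent.H891.TE6.Comb
import Cfsg.Agent.KFacts.TwESix.Dat
import Cfsg.Agent.KFacts.TwESix.OutTwo

/-!
# The image of a root element of `²E₆(2^e)` under an automorphism (helper891)

* `diag_root` : a diagonal-field automorphism fixes the root groups;
* `conj_rho`, `conj_N3`, `conj_eh` : the action of `U` on `X ρ`, on the three highest long root groups, on `X e`;
* `image` : the three cases.
-/

set_option autoImplicit false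
set_option linter.unusedSectionVars false

namespace Cfsg.Agent.H891.TE6

open CoxeterSystem Cfsg.Agent.ChevalleyStructure.CoxeterGeom Cfsg.Agent.Tits.Roots Cfsg.Agent.Tits.Core
  Cfsg.Agent.Tits.Exchange Cfsg.Agent.Nodes.Reps Cfsg.Agent.Nodes.BNOf Cfsg.Agent.Nodes.Bruhat
  Cfsg.Agent.KFacts.RgdAut Cfsg.Agent.KFacts.RgdDiag Cfsg.Agent.KFacts.RgdNodes Cfsg.Agent.KFacts.RgdRigid
open Cfsg.Agent.Nodes.RGDTwE6 Cfsg.Agent.KFacts.TwESix Cfsg.Agent.KFacts.TwESix.Comb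
open Cfsg.Agent.KFacts.TwESix.Facts (Dat)
open Cfsg.Lie
open scoped commutatorElement

universe u

/-! ### combinatorics -/

/-- the three highest roots -/
def S3 : Set (Fin 4 → ℤ) := {z | z = rho ∨ z = rho1 ∨ z = rho2}

theorem S3_root : ∀ z ∈ [rho, rho1, rho2], z ∈ rts ∧ bf z z = 4 ∧ ∀ k, 0 ≤ z k := by decide +kernel

theorem S3_comm : ∀ z ∈ [rho, rho1, rho2], ∀ z' ∈ [rho, rho1, rho2], 0 ≤ bf z z' := by decide +kernel

theorem S3_norm : ∀ z ∈ rts, (∀ k, 0 ≤ z k) → ∀ y ∈ [rho, rho1, rho2], 0 ≤ bf z y ∨ (z ≠ y ∧ z ≠ -y ∧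
    ∀ t ∈ rts, Btw.bt z y t → (t = rho ∨ t = rho1 ∨ t = rho2)) := by decide +kernel

theorem eh_norm : ∀ z ∈ rts, (∀ k, 0 ≤ z k) → z = eh ∨ (z ≠ -eh ∧ ∀ t ∈ rts, Btw.bt z eh t →
    (t = rho ∨ t = rho1 ∨ t = rho2)) := by decide +kernel

theorem eh_root : eh ∈ rts ∧ bf eh eh = 2 ∧ ∀ k, 0 ≤ eh k := by decide +kernel

theorem mem_S3 {z : Fin 4 → ℤ} : z ∈ S3 ↔ z ∈ [rho, rho1, rho2] := by
  simp [S3]

section gen

variable {W Y : Type*} [Group W] [Group Y] {cs : CoxeterSystem CoxeterMatrix.F₄ W} {T : Subgroup Y} {n : Fin 4 → Y}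
  {X : (Fin 4 → ℤ) → Subgroup Y}

variable (R : RGD cs isCartan 2 T n X)

theorem hat_one (hσ : ∀ i j, CoxeterMatrix.F₄ ((1 : Equiv.Perm (Fin 4)) i) ((1 : Equiv.Perm (Fin 4)) j) =
    CoxeterMatrix.F₄ i j) (w : W) : hat cs 1 hσ w = w := by
  obtain ⟨ω, rfl⟩ := cs.wordProd_surjective w
  induction ω with
  | nil => rw [wordProd_nil, map_one]
  | cons i ω ih => rw [wordProd_cons, map_mul, hat_simple, ih]; rfl

include R

/-- a diagonal-field automorphism fixes the root groups -/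
theorem diag_root {δ : MulAut Y} (D : Diag T X δ 1) {z : Fin 4 → ℤ} (hz : IsRoot cs isCartan z) (x : Y) :
    δ x ∈ X z ↔ x ∈ X z := by
  have : Finite W := finiteW cs
  obtain ⟨w, i, rfl⟩ := hz
  have h := D.root R (fun _ _ => rfl) w i x
  rw [hat_one (cs := cs) (fun _ _ => rfl) w] at h
  exact h

theorem diag_Sup {δ : MulAut Y} (D : Diag T X δ 1) {S : Set (Fin 4 → ℤ)} (hS : ∀ z ∈ S, IsRoot cs isCartan z) {x : Y}
    (hx : x ∈ RGD.Sup X S) : δ x ∈ RGD.Sup X S := by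
  have h1 : RGD.Sup X S ≤ (RGD.Sup X S).comap δ.toMonoidHom := by
    refine RGD.Sup_le fun z hz y hy => ?_
    exact RGD.le_Sup hz ((diag_root R D (hS z hz) y).2 hy)
  exact h1 hx

theorem S3_isRoot {z : Fin 4 → ℤ} (hz : z ∈ S3) : IsRoot cs isCartan z :=
  (mem_rts cs).2 (S3_root z (mem_S3.1 hz)).1

variable {R} in
/-- `U` normalises the product of the three highest root groups -/
theorem U_le_norm (D : Dat R) : RGD.Sup X (RGD.Pos cs isCartan) ≤ Subgroup.normalizer (RGD.Sup X S3 : Set Y) := by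
  have key : ∀ z, z ∈ RGD.Pos cs isCartan → ∀ c ∈ X z, ∀ g ∈ RGD.Sup X S3, c * g * c⁻¹ ∈ RGD.Sup X S3 := by
    intro z hz c hc g hg
    have h1 : RGD.Sup X S3 ≤ (RGD.Sup X S3).comap (MulAut.conj c).toMonoidHom := by
      refine RGD.Sup_le fun y hy b hb => ?_
      show c * b * c⁻¹ ∈ RGD.Sup X S3
      have hy' := mem_S3.1 hy
      have hby : b ∈ RGD.Sup X S3 := RGD.le_Sup hy hb
      rcases S3_norm z ((mem_rts cs).1 hz.1) hz.2 y hy' with h | ⟨h0, h1, h2⟩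
      · have h3 := Facts.comm_long D hz.1 (S3_isRoot R hy) (S3_root y hy').2.1 h hc hb
        rw [h3, mul_inv_cancel_right]
        exact hby
      · have h3 := R.comm z y hz.1 (S3_isRoot R hy) h0 h1 c hc b hb
        have h4 : ⁅c, b⁆ ∈ RGD.Sup X S3 := by
          refine R.btw_le_Sup (fun t ht => ?_) h3
          obtain ⟨h4, h5⟩ := Btw.btwn_spec cs hz.1 (S3_isRoot R hy) h0 h1 ht
          exact h2 t h4 h5
        have e : c * b * c⁻¹ = ⁅c, b⁆ * b := by rw [commutatorElement_def]; group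
        rw [e]
        exact mul_mem h4 hby
    exact h1 hg
  refine RGD.Sup_le fun z hz c hc => ?_
  rw [Subgroup.mem_normalizer_iff]
  intro g
  refine ⟨fun hg => key z hz c hc g hg, fun hg => ?_⟩
  have h1 := key z hz c⁻¹ (inv_mem hc) _ hg
  have e : c⁻¹ * (c * g * c⁻¹) * c⁻¹⁻¹ = g := by group
  rwa [e] at h1

variable {R} in
theorem conj_N3 (D : Dat R) {u z : Y} (hu : u ∈ RGD.Sup X (RGD.Pos cs isCartan)) (hz : z ∈ RGD.Sup X S3) :
    u * z * u⁻¹ ∈ RGD.Sup X S3 :=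
  (Subgroup.mem_normalizer_iff.1 (U_le_norm D hu) z).1 hz

variable {R} in
theorem conj_eh (D : Dat R) {u a : Y} (hu : u ∈ RGD.Sup X (RGD.Pos cs isCartan)) (ha : a ∈ X eh) :
    ⁅u, a⁆ ∈ RGD.Sup X S3 := by
  have heh : IsRoot cs isCartan eh := (mem_rts cs).2 eh_root.1
  let H : Subgroup Y :=
    { carrier := {u | u ∈ Subgroup.normalizer (RGD.Sup X S3 : Set Y) ∧ ∀ a ∈ X eh, ⁅u, a⁆ ∈ RGD.Sup X S3}
      one_mem' := ⟨one_mem _, fun a _ => by rw [commutatorElement_one_left]; exact one_mem _⟩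
      mul_mem' := by
        rintro u v ⟨hu, hu'⟩ ⟨hv, hv'⟩
        refine ⟨mul_mem hu hv, fun a ha => ?_⟩
        have e : ⁅u * v, a⁆ = (u * ⁅v, a⁆ * u⁻¹) * ⁅u, a⁆ := by
          simp only [commutatorElement_def]; group
        rw [e]
        exact mul_mem ((Subgroup.mem_normalizer_iff.1 hu _).1 (hv' a ha)) (hu' a ha)
      inv_mem' := by
        rintro u ⟨hu, hu'⟩
        refine ⟨inv_mem hu, fun a ha => ?_⟩
        have e : ⁅u⁻¹, a⁆ = u⁻¹ * ⁅u, a⁆⁻¹ * u⁻¹⁻¹ := by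
          simp only [commutatorElement_def]; group
        rw [e]
        exact (Subgroup.mem_normalizer_iff.1 (inv_mem hu) _).1 (inv_mem (hu' a ha)) }
  have h1 : RGD.Sup X (RGD.Pos cs isCartan) ≤ H := by
    refine RGD.Sup_le fun z hz c hc => ?_
    refine ⟨U_le_norm D (RGD.le_Sup (S := RGD.Pos cs isCartan) hz hc), fun a ha => ?_⟩
    by_cases hze : z = eh
    · subst hze
      have : ⁅c, a⁆ = 1 := commutatorElement_eq_one_iff_mul_comm.2 (Facts.abel R heh hc ha)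
      rw [this]
      exact one_mem _
    · rcases eh_norm z ((mem_rts cs).1 hz.1) hz.2 with h | ⟨h1, h2⟩
      · exact absurd h hze
      · have h3 := R.comm z eh hz.1 heh hze h1 c hc a ha
        refine R.btw_le_Sup (fun t ht => ?_) h3
        obtain ⟨h4, h5⟩ := Btw.btwn_spec cs hz.1 heh hze h1 ht
        exact h2 t h4 h5
  exact (h1 hu).2 a ha

variable {R} in
/-- `U` centralises `X ρ` -/
theorem conj_rho (D : Dat R) {u x : Y} (hu : u ∈ RGD.Sup X (RGD.Pos cs isCartan)) (hx : x ∈ X rho) :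
    u * x * u⁻¹ = x := by
  have h1 : RGD.Sup X (RGD.Pos cs isCartan) ≤ Subgroup.centralizer ({x} : Set Y) := by
    refine RGD.Sup_le fun z hz c hc => ?_
    rw [Subgroup.mem_centralizer_singleton_iff]
    refine Facts.comm_long D hz.1 (rho_root cs) rho_long ?_ hc hx
    rw [bf_rho]
    have := hz.2 0
    have h0 : (0 : ℤ) ≤ z 0 := this
    omega
  have h2 := Subgroup.mem_centralizer_singleton_iff.1 (h1 hu)
  rw [h2, mul_inv_cancel_right]

/-- elements of a join of three commuting root groups -/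
theorem mem_three {a b c : Fin 4 → ℤ} {S : Set (Fin 4 → ℤ)} (hS : ∀ z ∈ S, z = a ∨ z = b ∨ z = c)
    (hab : ∀ x ∈ X a, ∀ y ∈ X b, x * y = y * x) (hac : ∀ x ∈ X a, ∀ y ∈ X c, x * y = y * x)
    (hbc : ∀ x ∈ X b, ∀ y ∈ X c, x * y = y * x) {g : Y} (hg : g ∈ RGD.Sup X S) :
    ∃ x ∈ X a, ∃ y ∈ X b, ∃ z ∈ X c, g = x * y * z := by
  let H : Subgroup Y :=
    { carrier := {g | ∃ x ∈ X a, ∃ y ∈ X b, ∃ z ∈ X c, g = x * y * z}
      one_mem' := ⟨1, one_mem _, 1, one_mem _, 1, one_mem _, by group⟩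
      mul_mem' := by
        rintro _ _ ⟨x, hx, y, hy, z, hz, rfl⟩ ⟨x', hx', y', hy', z', hz', rfl⟩
        refine ⟨x * x', mul_mem hx hx', y * y', mul_mem hy hy', z * z', mul_mem hz hz', ?_⟩
        have e1 := hac x' hx' z hz
        have e2 := hab x' hx' y hy
        have e3 := hbc y' hy' z hz
        calc x * y * z * (x' * y' * z') = x * y * (z * x') * y' * z' := by group
          _ = x * y * (x' * z) * y' * z' := by rw [e1]
          _ = x * (y * x') * (z * y') * z' := by group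
          _ = x * (x' * y) * (y' * z) * z' := by rw [e2, e3]
          _ = x * x' * (y * y') * (z * z') := by group
      inv_mem' := by
        rintro _ ⟨x, hx, y, hy, z, hz, rfl⟩
        refine ⟨x⁻¹, inv_mem hx, y⁻¹, inv_mem hy, z⁻¹, inv_mem hz, ?_⟩
        have e1 := hac x⁻¹ (inv_mem hx) z⁻¹ (inv_mem hz)
        have e2 := hab x⁻¹ (inv_mem hx) y⁻¹ (inv_mem hy)
        have e3 := hbc y⁻¹ (inv_mem hy) z⁻¹ (inv_mem hz)
        calc (x * y * z)⁻¹ = z⁻¹ * y⁻¹ * x⁻¹ := by group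
          _ = y⁻¹ * z⁻¹ * x⁻¹ := by rw [e3]
          _ = y⁻¹ * (z⁻¹ * x⁻¹) := by group
          _ = y⁻¹ * (x⁻¹ * z⁻¹) := by rw [e1]
          _ = (y⁻¹ * x⁻¹) * z⁻¹ := by group
          _ = x⁻¹ * y⁻¹ * z⁻¹ := by rw [e2] }
  have h1 : RGD.Sup X S ≤ H := by
    refine RGD.Sup_le fun z hz g hg => ?_
    rcases hS z hz with rfl | rfl | rfl
    · exact ⟨g, hg, 1, one_mem _, 1, one_mem _, by group⟩
    · exact ⟨1, one_mem _, g, hg, 1, one_mem _, by group⟩
    · exact ⟨1, one_mem _, 1, one_mem _, g, hg, by group⟩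
  exact h1 hg

end gen

/-! ### the image -/

/-- the images of the three highest long roots in the E-case -/
def ST : Set (Fin 4 → ℤ) := {z | z = -dt0 ∨ z = -dt1 ∨ z = -dt2}

theorem ST_root : ∀ z ∈ [-dt0, -dt1, -dt2], z ∈ rts ∧ bf z z = 4 := by decide +kernel

theorem ST_comm : ∀ z ∈ [-dt0, -dt1, -dt2], ∀ z' ∈ [-dt0, -dt1, -dt2], 0 ≤ bf z z' := by decide +kernel

section image

variable {K : Type u} [Field K] [Fintype K] [CharP K 2] {φ : K →+* K}

/-- **The image of the root elements.** `v = y⁻¹ a(y x y⁻¹) y`. -/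
theorem image (hφ : ∀ x, φ x = x ^ 2) (hqq : ∀ t : K, (t ^ 2) ^ 2 = t) (hK : Fintype.card K = 2 ^ 2)
    [IsSimpleGroup ↥(twistedE6 K 2)] {a : MulAut ↥(twistedE6 K 2)} (ha : a ≠ 1) :
    ∃ y : ↥(twistedE6 K 2),
      (∀ x ∈ X φ 2 rho, y⁻¹ * a (y * x * y⁻¹) * y ∈ X φ 2 (-rho)) ∨
      (∀ x ∈ X φ 2 rho, y⁻¹ * a (y * x * y⁻¹) * y ∈ X φ 2 (-rho1)) ∨
      (∀ x ∈ X φ 2 eh, x ≠ 1 → ∀ z ∈ RGD.Sup (X φ 2) S3, ∃ v ∈ X φ 2 (-eh), v ≠ 1 ∧ ∃ v0 ∈ X φ 2 (-dt0),
        ∃ v1 ∈ X φ 2 (-dt1), ∃ v2 ∈ X φ 2 (-dt2), y⁻¹ * a (y * (x * z) * y⁻¹) * y = v * (v0 * v1 * v2)) := by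
  have hfin : Finite (GL chevE6.Idx K) := inferInstance
  have hfin' : Finite ↥(twistedE6 K 2) := inferInstance
  let cs := CoxeterMatrix.F₄.toCoxeterSystem
  have : Finite CoxeterMatrix.F₄.Group := finiteW cs
  have : Fact (Nat.Prime 2) := ⟨Nat.prime_two⟩
  have R := Cfsg.Agent.Nodes.RGDTwE6.rgd cs hφ hqq 2
  have DD : Dat R := Dat.dat cs hφ hqq hK (by norm_num)
  have hG : GG cs isCartan (T K 2) (X φ 2) = ⊤ := GG_eq_top (T := T K 2) (OutTwo.G1_top cs hφ hqq)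
  obtain ⟨δ, σ, y, w, k, u, D, hw1, hk, hu, himg, hcase⟩ := H891.UL.Disp.exists_disp' R hG ha
  have h2 : σ = 1 := by
    apply OutTwo.perm_F4 σ (D.matrix R)
    intro h3
    have h4 := Diag.card_eq D 0
    rw [h3] at h4
    exact OutTwo.card_ne hφ hqq hK (by norm_num) h4
  subst h2
  have hdt : ∀ z ∈ ST, IsRoot cs isCartan z := fun z hz =>
    (mem_rts cs).2 (ST_root z (by simpa [ST] using hz)).1
  have heh : IsRoot cs isCartan eh := (mem_rts cs).2 eh_root.1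
  refine ⟨y, ?_⟩
  rcases w_cases cs (w := w) (fun i => (hcase i).imp_right fun h => h.1) with h | h | h | h
  · exact absurd h hw1
  · left
    intro x hx
    have h1 : δ x ∈ X φ 2 rho := (diag_root R D (rho_root cs) x).2 hx
    rw [himg, conj_rho DD hu h1, ← h]
    exact R.conj_mem hk (rho_root cs) h1
  · right; left
    intro x hx
    have h1 : δ x ∈ X φ 2 rho := (diag_root R D (rho_root cs) x).2 hx
    rw [himg, conj_rho DD hu h1, ← h]
    exact R.conj_mem hk (rho_root cs) h1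
  · right; right
    obtain ⟨h0, h1, h2, h3⟩ := h
    intro x hx hx1 z hz
    have hdx : δ x ∈ X φ 2 eh := (diag_root R D heh x).2 hx
    have hdz : δ z ∈ RGD.Sup (X φ 2) S3 := diag_Sup R D (fun _ h => S3_isRoot R h) hz
    have hc := conj_eh DD hu hdx
    obtain ⟨z', hz'⟩ : ∃ z', z' = (δ x)⁻¹ * ⁅u, δ x⁆ * δ x * (u * δ z * u⁻¹) := ⟨_, rfl⟩
    have hz'm : z' ∈ RGD.Sup (X φ 2) S3 := by
      rw [hz']
      refine mul_mem ?_ (conj_N3 DD hu hdz)
      have h5 : (δ x)⁻¹ ∈ RGD.Sup (X φ 2) (RGD.Pos cs isCartan) :=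
        inv_mem (RGD.le_Sup (S := RGD.Pos cs isCartan) ⟨heh, fun k => eh_root.2.2 k⟩ hdx)
      have := conj_N3 DD h5 hc
      rwa [inv_inv] at this
    have e1 : u * δ (x * z) * u⁻¹ = δ x * z' := by
      rw [hz', map_mul, commutatorElement_def]; group
    have hv : k * δ x * k⁻¹ ∈ X φ 2 (-eh) := by
      have := R.conj_mem hk heh hdx
      rwa [h0] at this
    have hv1 : k * δ x * k⁻¹ ≠ 1 := by
      intro h5
      apply hx1
      have h6 : δ x = 1 := by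
        have h7 : δ x = k⁻¹ * (k * δ x * k⁻¹) * k := by group
        rw [h7, h5]; group
      exact δ.injective (by rw [h6, map_one])
    have hz'' : k * z' * k⁻¹ ∈ RGD.Sup (X φ 2) ST := by
      refine conj_mem_Sup R hk (fun _ h => S3_isRoot R h) ?_ hz'm
      rintro z (rfl | rfl | rfl)
      · exact Or.inl h1
      · exact Or.inr (Or.inl h2)
      · exact Or.inr (Or.inr h3)
    have hcm : ∀ z z', z ∈ ST → z' ∈ ST → ∀ x ∈ X φ 2 z, ∀ y ∈ X φ 2 z', x * y = y * x := by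
      intro z z' hz hz' x hx y hy
      exact Facts.comm_long DD (hdt z hz) (hdt z' hz') (ST_root z' (by simpa [ST] using hz')).2
        (ST_comm z (by simpa [ST] using hz) z' (by simpa [ST] using hz')) hx hy
    obtain ⟨v0, hv0, v1', hv1', v2, hv2, e2⟩ := mem_three R (a := -dt0) (b := -dt1) (c := -dt2) (S := ST)
      (fun z hz => hz) (hcm _ _ (Or.inl rfl) (Or.inr (Or.inl rfl))) (hcm _ _ (Or.inl rfl) (Or.inr (Or.inr rfl)))
      (hcm _ _ (Or.inr (Or.inl rfl)) (Or.inr (Or.inr rfl))) hz''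
    refine ⟨k * δ x * k⁻¹, hv, hv1, v0, hv0, v1', hv1', v2, hv2, ?_⟩
    rw [himg, e1, ← e2]
    group

end image

end Cfsg.Agent.H891.TE6
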