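import Cfsg.Agent.H891.UL.Pair
import Cfsg.Agent.H891.TE6.Img
import Cfsg.Agent.H891.TE6.Elt
import Cfsg.Agent.H891.TE6.Cert0
import Cfsg.Agent.H891.TE6.Cert1
import Cfsg.Agent.H891.TE6.Cert2
import Cfsg.Agent.H891.TE6.CertP

/-!
# `²E₆(2)`: every nontrivial automorphism satisfies `Body` (helper891)

* `body_all` : from `hKtop`: a subgroup of order divisible by 13 and 19 is the whole group.
-/

set_option autoImplicit false
set_option linter.unusedSectionVars false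

namespace Cfsg.Agent.H891.TE6

open CoxeterSystem Cfsg.Agent.ChevalleyStructure.CoxeterGeom Cfsg.Agent.Tits.Roots Cfsg.Agent.Tits.Core
  Cfsg.Agent.Nodes.BNOf Cfsg.Agent.Nodes.RGDTwGen Cfsg.Agent.Nodes.RGDChev Cfsg.Agent.Nodes.RGDFold
open Cfsg.Lie Cfsg.Agent.ChevalleyStructure Cfsg.Agent.ChevalleyStructure.Elts
  Cfsg.Agent.ChevalleyStructure.TwistedU Cfsg.Agent.ChevalleyStructure.TwistedFix
open Cfsg.Agent.ChevalleyStructure.TwE6Basic (sg fix rho_def sg_x hE6)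
open Cfsg.Agent.ChevalleyStructure.GraphSymm
open Cfsg.Agent.Nodes.RGDTwE6 Cfsg.Agent.KFacts.TwESix.Comb Cfsg.Agent.H891.TE6.Eng
open Cfsg.Agent.H862.Spr (Body)
open Cfsg.Agent.Th.E8Recipe (code)

universe u

/-! ### tables -/

set_option maxRecDepth 20000 in
theorem lon : ∀ r ∈ ([46, 39, 47, 71, 0, 1, 11, 8, 6] : List (Fin 72)), TwE6Basic.rho r = r := by decide +kernel

set_option maxRecDepth 20000 in
theorem sho : ∀ p ∈ ([(42, 37), (56, 36), (38, 57), (43, 40), (5, 3), (68, 66)] : List (Fin 72 × Fin 72)),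
    TwE6Basic.rho p.1 = p.2 := by decide +kernel

set_option maxRecDepth 20000 in
theorem V_eq : V chevE6 J 71 = rho ∧ V chevE6 J 0 = -rho ∧ V chevE6 J 1 = -rho1 ∧ V chevE6 J 68 = eh ∧
    V chevE6 J 5 = -eh ∧ V chevE6 J 11 = -dt0 ∧ V chevE6 J 8 = -dt1 ∧ V chevE6 J 6 = -dt2 := by decide +kernel

set_option maxRecDepth 20000 in
theorem V_lon : ∀ r ∈ ([0, 1, 11, 8, 6] : List (Fin 72)), ∀ k < chevE6.nroots,
    (V chevE6 J k = V chevE6 J r.val ↔ k ∈ [r.val]) := by decide +kernel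

set_option maxRecDepth 20000 in
theorem V_five : ∀ k < chevE6.nroots, (V chevE6 J k = V chevE6 J (5 : Fin 72).val ↔
    k ∈ [(5 : Fin 72).val, (TwE6Basic.rho 5).val]) := by decide +kernel

theorem cE13 {s : ℕ} (hs : s < 3) (z0 z1 z2 : Bool) : ∃ i j,
    chkOrd chevE6 (fgw (run M78 lX) (run M78 (lV s z0 z1 z2)) i j) 13 = true := by
  interval_cases s <;> cases z0 <;> cases z1 <;> cases z2
  · exact ⟨6, 0, c13_0_0⟩
  · exact ⟨4, 0, c13_0_4⟩
  · exact ⟨3, 1, c13_0_2⟩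
  · exact ⟨4, 3, c13_0_6⟩
  · exact ⟨2, 1, c13_0_1⟩
  · exact ⟨4, 3, c13_0_5⟩
  · exact ⟨10, 3, c13_0_3⟩
  · exact ⟨4, 0, c13_0_7⟩
  · exact ⟨5, 1, c13_1_0⟩
  · exact ⟨3, 2, c13_1_4⟩
  · exact ⟨2, 0, c13_1_2⟩
  · exact ⟨8, 1, c13_1_6⟩
  · exact ⟨3, 2, c13_1_1⟩
  · exact ⟨9, 3, c13_1_5⟩
  · exact ⟨3, 1, c13_1_3⟩
  · exact ⟨9, 6, c13_1_7⟩
  · exact ⟨5, 1, c13_2_0⟩
  · exact ⟨9, 6, c13_2_4⟩
  · exact ⟨2, 0, c13_2_2⟩
  · exact ⟨9, 3, c13_2_6⟩
  · exact ⟨3, 2, c13_2_1⟩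
  · exact ⟨8, 1, c13_2_5⟩
  · exact ⟨3, 1, c13_2_3⟩
  · exact ⟨3, 2, c13_2_7⟩

theorem cE19 {s : ℕ} (hs : s < 3) (z0 z1 z2 : Bool) : ∃ i j,
    chkOrd chevE6 (fgw (run M78 lX) (run M78 (lV s z0 z1 z2)) i j) 19 = true := by
  interval_cases s <;> cases z0 <;> cases z1 <;> cases z2
  · exact ⟨2, 0, c19_0_0⟩
  · exact ⟨4, 2, c19_0_4⟩
  · exact ⟨5, 1, c19_0_2⟩
  · exact ⟨5, 1, c19_0_6⟩
  · exact ⟨4, 2, c19_0_1⟩
  · exact ⟨5, 1, c19_0_5⟩
  · exact ⟨3, 1, c19_0_3⟩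
  · exact ⟨4, 2, c19_0_7⟩
  · exact ⟨1, 0, c19_1_0⟩
  · exact ⟨6, 3, c19_1_4⟩
  · exact ⟨1, 0, c19_1_2⟩
  · exact ⟨2, 0, c19_1_6⟩
  · exact ⟨1, 0, c19_1_1⟩
  · exact ⟨13, 1, c19_1_5⟩
  · exact ⟨1, 0, c19_1_3⟩
  · exact ⟨2, 0, c19_1_7⟩
  · exact ⟨1, 0, c19_2_0⟩
  · exact ⟨2, 0, c19_2_4⟩
  · exact ⟨1, 0, c19_2_2⟩
  · exact ⟨13, 1, c19_2_6⟩
  · exact ⟨1, 0, c19_2_1⟩
  · exact ⟨2, 0, c19_2_5⟩
  · exact ⟨1, 0, c19_2_3⟩
  · exact ⟨6, 3, c19_2_7⟩

section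

variable {K : Type u} [Field K] [Fintype K] [CharP K 2] {φ : K →+* K} {ω : K}

theorem wdG_ne (hω : ω ^ 2 + ω + 1 = 0) {w w' : List (ℕ × ℕ)} {f f' : ℕ → ℕ} (h : Acts chevE6 w f)
    (h' : Acts chevE6 w' f') {k : ℕ} (hk : k < 78) (hc : neqAt (f 1) (f' 1) k = true) :
    wdG ω hE6 w ≠ wdG ω hE6 w' := by
  intro e
  have h1 := vecMul_acts hE6 hω h 1
  have h2 := vecMul_acts hE6 hω h' 1
  rw [e, h2] at h1
  obtain ⟨a, ha⟩ := Th.E8Recipe.exists_code (D := chevE6) (k := k) (lt_of_lt_of_eq hk (by decide +kernel))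
  have h3 := congrFun h1 a
  rw [ha] at h3
  exact val_ne hω hc h3.symm

theorem mem_of_root (hφ : ∀ x, φ x = x ^ 2) (hqq : ∀ t : K, (t ^ 2) ^ 2 = t) {z : Fin 4 → ℤ} (hz : z ∈ rts)
    {g : GL chevE6.Idx K} (hg : g ∈ R chevE6 hp K J (sg φ) z) : g ∈ twistedE6 K 2 := by
  have : Fact (Nat.Prime 2) := ⟨Nat.prime_two⟩
  exact R_le CoxeterMatrix.F₄.toCoxeterSystem isCartan foldData (foldGrp hφ hqq) 2 ((mem_rts _).2 hz) hg

theorem pow_omega (hω : ω ^ 2 + ω + 1 = 0) (i : ℕ) : ω ^ (2 * i % 3) = (ω ^ i) ^ 2 := by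
  rw [← pow_mul, mul_comm i 2]
  conv_rhs => rw [← Nat.mod_add_div (2 * i) 3, pow_add, pow_mul, pow_three hω, one_pow, mul_one]

theorem short_R (hφ : ∀ x, φ x = x ^ 2) (hqq : ∀ t : K, (t ^ 2) ^ 2 = t) (hω : ω ^ 2 + ω + 1 = 0) (r r' : Fin 72)
    (hr : TwE6Basic.rho r = r') (i : ℕ) :
    wdG ω hE6 [(r.val, i), (r'.val, 2 * i % 3)] ∈ R chevE6 hp K J (sg φ) (V chevE6 J r.val) := by
  have h1 := mem_short (K := K) (φ := φ) r (t := ω ^ i) (s := ω ^ (2 * i % 3)) hφ (pow_omega hω i) (by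
    rw [pow_omega hω, hqq])
  rw [hr] at h1
  have e : wdG ω hE6 [(r.val, i), (r'.val, 2 * i % 3)] =
      xG hE6 r.val (ω ^ i) * xG hE6 r'.val (ω ^ (2 * i % 3)) := by
    rw [wdG_cons, wdG_cons]
    show _ * (_ * 1) = _
    rw [mul_one]
  rw [e]
  exact h1

theorem long_R (r : Fin 72) (hr : TwE6Basic.rho r = r) :
    wdG ω hE6 [(r.val, 0)] ∈ R chevE6 hp K J (sg φ) (V chevE6 J r.val) := by
  have e : wdG ω hE6 [(r.val, 0)] = xG hE6 r.val 1 := by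
    rw [wdG_cons]
    show _ * 1 = _
    rw [mul_one, pow_zero]
  rw [e]
  exact one_mem_long hr

variable (hφ : ∀ x, φ x = x ^ 2) (hqq : ∀ t : K, (t ^ 2) ^ 2 = t) (hω : ω ^ 2 + ω + 1 = 0)

include hφ hqq hω

theorem short_mem (r r' : Fin 72) (hr : TwE6Basic.rho r = r') (i : ℕ) :
    wdG ω hE6 [(r.val, i), (r'.val, 2 * i % 3)] ∈ twistedE6 K 2 :=
  mem_of_root hφ hqq (V_mem_rts r.val r.2) (short_R hφ hqq hω r r' hr i)

theorem long_mem (r : Fin 72) (hr : TwE6Basic.rho r = r) : wdG ω hE6 [(r.val, 0)] ∈ twistedE6 K 2 :=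
  mem_of_root hφ hqq (V_mem_rts r.val r.2) (long_R r hr)

theorem wX_mem : wdG ω hE6 wX ∈ twistedE6 K 2 := by
  unfold wX
  rw [wdG_append, wdG_append, wdG_append, wdG_append]
  exact mul_mem (long_mem hφ hqq hω 46 (lon _ (by simp))) (mul_mem (long_mem hφ hqq hω 39 (lon _ (by simp)))
    (mul_mem (short_mem hφ hqq hω 42 37 (sho (42, 37) (by simp)) 0)
    (mul_mem (short_mem hφ hqq hω 56 36 (sho (56, 36) (by simp)) 0)
      (short_mem hφ hqq hω 38 57 (sho (38, 57) (by simp)) 1))))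

theorem wP_mem : wdG ω hE6 wP ∈ twistedE6 K 2 := by
  unfold wP
  rw [wdG_append, wdG_append, wdG_append]
  exact mul_mem (short_mem hφ hqq hω 56 36 (sho (56, 36) (by simp)) 0)
    (mul_mem (short_mem hφ hqq hω 42 37 (sho (42, 37) (by simp)) 0)
    (mul_mem (long_mem hφ hqq hω 47 (lon _ (by simp))) (short_mem hφ hqq hω 43 40 (sho (43, 40) (by simp)) 1)))

omit hφ hqq in
theorem dvd_card {w wv : List (ℕ × ℕ)} {fX fV : ℕ → ℕ} (aX : Acts chevE6 w fX) (aV : Acts chevE6 wv fV)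
    {x v : ↥(twistedE6 K 2)} (hx : (x : GL chevE6.Idx K) = wdG ω hE6 w) (hv : (v : GL chevE6.Idx K) = wdG ω hE6 wv)
    {i j p : ℕ} (hp : p.Prime) (hc : chkOrd chevE6 (fgw fX fV i j) p = true) {H : Subgroup ↥(twistedE6 K 2)}
    (hxH : x ∈ H) (hvH : v ∈ H) : p ∣ Nat.card H := by
  obtain ⟨g, hg, e⟩ : ∃ g ∈ H, (g : GL chevE6.Idx K) = wdG ω hE6 (gw w wv i j) := by
    unfold gw
    cases j with
    | zero =>
      refine ⟨x ^ i * v, mul_mem (pow_mem hxH i) hvH, ?_⟩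
      rw [Subgroup.coe_mul, Subgroup.coe_pow, wdG_append, wdG_flatten, hx, hv]
      simp only [List.append_nil]
    | succ j =>
      refine ⟨x ^ i * (v * (x ^ (j + 1) * v)),
        mul_mem (pow_mem hxH i) (mul_mem hvH (mul_mem (pow_mem hxH _) hvH)), ?_⟩
      rw [Subgroup.coe_mul, Subgroup.coe_mul, Subgroup.coe_mul, Subgroup.coe_pow, Subgroup.coe_pow, wdG_append,
        wdG_flatten, hx, hv, wdG_append, wdG_append, wdG_flatten]
  refine dvd_of_chk hE6 hω (aX.gw aV i j) hp hc ?_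
  have h1 : (⟨g, hg⟩ : H) ^ Nat.card H = 1 := pow_card_eq_one'
  have h2 : g ^ Nat.card H = 1 := congrArg Subtype.val h1
  rw [← e, ← Subgroup.coe_pow, h2, Subgroup.coe_one]

omit hφ hqq in
theorem ne_53 : ∀ i < 3, xG hE6 (5 : Fin 72).val (ω ^ i) ≠ xG hE6 (TwE6Basic.rho 5).val (ω ^ (2 * i % 3)) := by
  have h0 : (TwE6Basic.rho 5).val = 3 := by decide +kernel
  have e : ∀ (r i : ℕ), wdG ω hE6 [(r, i)] = xG hE6 r (ω ^ i) := fun r i => by
    rw [wdG_cons]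
    show _ * 1 = _
    rw [mul_one]
  have a50 : Acts chevE6 [(5, 0)] (run M78 [l5]) :=
    Acts.of_ltrs msk78 (by decide +kernel) (by simp only [ltrs, List.map_cons, List.map_nil, l5_eq])
  have a51 : Acts chevE6 [(5, 1)] (run M78 [l5w1]) :=
    Acts.of_ltrs msk78 (by decide +kernel) (by simp only [ltrs, List.map_cons, List.map_nil, l5w1_eq])
  have a52 : Acts chevE6 [(5, 2)] (run M78 [l5w2]) :=
    Acts.of_ltrs msk78 (by decide +kernel) (by simp only [ltrs, List.map_cons, List.map_nil, l5w2_eq])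
  have a30 : Acts chevE6 [(3, 0)] (run M78 [l3]) :=
    Acts.of_ltrs msk78 (by decide +kernel) (by simp only [ltrs, List.map_cons, List.map_nil, l3_eq])
  have a31 : Acts chevE6 [(3, 1)] (run M78 [l3w1]) :=
    Acts.of_ltrs msk78 (by decide +kernel) (by simp only [ltrs, List.map_cons, List.map_nil, l3w1_eq])
  have a32 : Acts chevE6 [(3, 2)] (run M78 [l3w2]) :=
    Acts.of_ltrs msk78 (by decide +kernel) (by simp only [ltrs, List.map_cons, List.map_nil, l3w2_eq])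
  intro i hi
  rw [h0]
  interval_cases i
  · have := wdG_ne hω a50 a30 (by norm_num) ne_53_0
    rw [e, e] at this
    exact this
  · have := wdG_ne hω a51 a32 (by norm_num) ne_53_1
    rw [e, e] at this
    exact this
  · have := wdG_ne hω a52 a31 (by norm_num) ne_53_2
    rw [e, e] at this
    exact this

/-- the elements of a long root group -/
theorem mem_long_X (r : Fin 72) (hr : r ∈ ([0, 1, 11, 8, 6] : List (Fin 72))) {z : Fin 4 → ℤ}
    (hz : V chevE6 J r.val = z) {v : ↥(twistedE6 K 2)} (hv : v ∈ X φ 2 z) :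
    ∃ b : Bool, (v : GL chevE6.Idx K) = wdG ω hE6 (if b then [(r.val, 0)] else []) := by
  have h1 : (v : GL chevE6.Idx K) ∈ R chevE6 hp K J (sg φ) (V chevE6 J r.val) := by rw [hz]; exact hv
  have h2 : TwE6Basic.rho r = r := lon r (by
    simp only [List.mem_cons, List.not_mem_nil, or_false] at hr ⊢
    tauto)
  rcases long_cases r h2 (V_lon r hr) hφ h1 with h | h
  · exact ⟨false, h⟩
  · refine ⟨true, ?_⟩
    rw [h, if_pos rfl, wdG_cons, pow_zero]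
    exact (mul_one _).symm

theorem body_aux (hK : Fintype.card K = 2 ^ 2) [IsSimpleGroup ↥(twistedE6 K 2)]
    (hKtop : ∀ H : Subgroup ↥(twistedE6 K 2), 13 ∣ Nat.card H → 19 ∣ Nat.card H → H = ⊤)
    {a : MulAut ↥(twistedE6 K 2)} (ha : a ≠ 1) : Body a := by
  have p13 : Nat.Prime 13 := by norm_num
  have p19 : Nat.Prime 19 := by norm_num
  have hone : ∀ (y u : ↥(twistedE6 K 2)), u ≠ 1 → y⁻¹ * a (y * u * y⁻¹) * y ≠ 1 := by
    intro y u hu h
    apply hu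
    have h1 : a (y * u * y⁻¹) = 1 := by
      have h2 : a (y * u * y⁻¹) = y * (y⁻¹ * a (y * u * y⁻¹) * y) * y⁻¹ := by group
      rw [h2, h]; group
    have h2 : y * u * y⁻¹ = 1 := a.injective (by rw [h1, map_one])
    have h3 : u = y⁻¹ * (y * u * y⁻¹) * y := by group
    rw [h3, h2]; group
  -- the elements
  let xP : ↥(twistedE6 K 2) := ⟨wdG ω hE6 wP, wP_mem hφ hqq hω⟩
  let xX : ↥(twistedE6 K 2) := ⟨wdG ω hE6 wX, wX_mem hφ hqq hω⟩
  let x71 : ↥(twistedE6 K 2) := ⟨wdG ω hE6 [(71, 0)], long_mem hφ hqq hω 71 (lon _ (by simp))⟩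
  let xe : ↥(twistedE6 K 2) := ⟨wdG ω hE6 [(68, 0), (66, 0)], short_mem hφ hqq hω 68 66 (sho (68, 66) (by simp)) 0⟩
  have h71 : x71 ∈ X φ 2 rho := by
    show wdG ω hE6 [(71, 0)] ∈ R chevE6 hp K J (sg φ) rho
    have := long_R (φ := φ) (ω := ω) 71 (lon _ (by simp))
    rwa [show V chevE6 J (71 : Fin 72).val = rho from V_eq.1] at this
  have he : xe ∈ X φ 2 eh := by
    show wdG ω hE6 [(68, 0), (66, 0)] ∈ R chevE6 hp K J (sg φ) eh
    have := short_R hφ hqq hω 68 66 (sho (68, 66) (by simp)) 0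
    rwa [show V chevE6 J (68 : Fin 72).val = eh from V_eq.2.2.2.1] at this
  have hpowP : xP ^ 8 = x71 := by
    apply Subtype.ext
    show wdG ω hE6 wP ^ 8 = wdG ω hE6 [(71, 0)]
    rw [← wdG_flatten]
    exact eq_of_chk hE6 hω (acts_P.iter 8) acts_71 pow_P
  have hpowX : xX ^ 8 = xe * x71 := by
    apply Subtype.ext
    show wdG ω hE6 wX ^ 8 = wdG ω hE6 [(68, 0), (66, 0)] * wdG ω hE6 [(71, 0)]
    rw [← wdG_flatten, ← wdG_append]
    exact eq_of_chk hE6 hω (acts_X.iter 8) acts_E pow_X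
  have h71ne : x71 ≠ 1 := by
    intro h
    have h1 : wdG ω hE6 [(71, 0)] = wdG ω hE6 [] := congrArg Subtype.val h
    rw [wdG_cons, pow_zero] at h1
    have h2 : xG hE6 71 (1 : K) = 1 := by simpa [wdG] using h1
    exact one_ne_zero ((TwE6Basic.x_eq_one_iff (by norm_num) (1 : K)).1 h2)
  have hene : xe ≠ 1 := by
    intro h
    have aE : Acts chevE6 [(68, 0), (66, 0)] (run M78 [l68, l66]) :=
      Acts.of_ltrs msk78 (by decide +kernel) (by simp only [ltrs, List.map_cons, List.map_nil, l68_eq, l66_eq])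
    exact wdG_ne hω aE Acts.nil (by norm_num) ne_E (congrArg Subtype.val h)
  obtain ⟨y, hy | hy | hy⟩ := image hφ hqq hK ha
  · -- opposite
    obtain ⟨v, hv⟩ : ∃ v, v = y⁻¹ * a (y * x71 * y⁻¹) * y := ⟨_, rfl⟩
    have h1 := hy x71 h71
    rw [← hv] at h1
    obtain ⟨b, hb⟩ := mem_long_X hφ hqq hω 0 (by simp) V_eq.2.1 h1
    have hb' : (v : GL chevE6.Idx K) = wdG ω hE6 [(0, 0)] := by
      cases b with
      | true => exact hb
      | false =>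
        exfalso
        apply hone y x71 h71ne
        rw [← hv]
        exact Subtype.ext hb
    refine UL.body_of_pair (x := xP) (u := x71) (v := v) (y := y) ⟨8, by simpa using hpowP⟩ (fun H hx hvH => ?_)
      ⟨1, by rw [hv]; simp only [zpow_one]; group⟩
    exact hKtop H (dvd_card hω acts_P acts_0 rfl hb' p13 p13_0 hx hvH)
      (dvd_card hω acts_P acts_0 rfl hb' p19 p19_0 hx hvH)
  · -- special
    obtain ⟨v, hv⟩ : ∃ v, v = y⁻¹ * a (y * x71 * y⁻¹) * y := ⟨_, rfl⟩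
    have h1 := hy x71 h71
    rw [← hv] at h1
    obtain ⟨b, hb⟩ := mem_long_X hφ hqq hω 1 (by simp) V_eq.2.2.1 h1
    have hb' : (v : GL chevE6.Idx K) = wdG ω hE6 [(1, 0)] := by
      cases b with
      | true => exact hb
      | false =>
        exfalso
        apply hone y x71 h71ne
        rw [← hv]
        exact Subtype.ext hb
    refine UL.body_of_pair (x := xP) (u := x71) (v := v) (y := y) ⟨8, by simpa using hpowP⟩ (fun H hx hvH => ?_)
      ⟨1, by rw [hv]; simp only [zpow_one]; group⟩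
    exact hKtop H (dvd_card hω acts_P acts_1 rfl hb' p13 p13_1 hx hvH)
      (dvd_card hω acts_P acts_1 rfl hb' p19 p19_1 hx hvH)
  · -- the E-case
    obtain ⟨v', hv', hv1, v0, hv0, v1, hv1', v2, hv2, e⟩ := hy xe he hene x71 (RGD.le_Sup (Or.inl rfl) h71)
    obtain ⟨v, hv⟩ : ∃ v, v = v' * (v0 * v1 * v2) := ⟨_, rfl⟩
    have h5 : (v' : GL chevE6.Idx K) ∈ R chevE6 hp K J (sg φ) (V chevE6 J (5 : Fin 72).val) := by
      rw [show V chevE6 J (5 : Fin 72).val = -eh from V_eq.2.2.2.2.1]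
      exact hv'
    have h0 : (TwE6Basic.rho 5).val = 3 := by decide +kernel
    rcases short_cases hK hω 5 (by decide +kernel) V_five (ne_53 hω) hφ h5 with h6 | ⟨s, hs, h6⟩
    · exact absurd (Subtype.ext h6) hv1
    obtain ⟨z0, hz0⟩ := mem_long_X hφ hqq hω 11 (by simp) V_eq.2.2.2.2.2.1 hv0
    obtain ⟨z1, hz1⟩ := mem_long_X hφ hqq hω 8 (by simp) V_eq.2.2.2.2.2.2.1 hv1'
    obtain ⟨z2, hz2⟩ := mem_long_X hφ hqq hω 6 (by simp) V_eq.2.2.2.2.2.2.2 hv2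
    have hvw : (v : GL chevE6.Idx K) = wdG ω hE6 (wV s z0 z1 z2) := by
      unfold wV
      rw [wdG_append, wdG_append, wdG_append, hv, Subgroup.coe_mul, Subgroup.coe_mul, Subgroup.coe_mul, h6, hz0, hz1,
        hz2, h0, wdG_cons, wdG_cons]
      show _ * _ * (_ * _ * _) = _ * (_ * 1) * (_ * (_ * _))
      rw [mul_one, mul_assoc (wdG ω hE6 (if z0 = true then _ else _))]
      rfl
    obtain ⟨i, j, c13⟩ := cE13 hs z0 z1 z2
    obtain ⟨i', j', c19⟩ := cE19 hs z0 z1 z2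
    refine UL.body_of_pair (x := xX) (u := xe * x71) (v := v) (y := y) ⟨8, by simpa using hpowX⟩ (fun H hx hvH => ?_)
      ⟨1, by rw [hv, ← e]; simp only [zpow_one]; group⟩
    exact hKtop H (dvd_card hω acts_X (acts_V hs z0 z1 z2) rfl hvw p13 c13 hx hvH)
      (dvd_card hω acts_X (acts_V hs z0 z1 z2) rfl hvw p19 c19 hx hvH)

end

/-- **`²E₆(2)`: all automorphisms.** -/
theorem body_all {K : Type u} [Field K] [Fintype K] (hK : Fintype.card K = 2 ^ 2)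
    (hS : IsSimpleGroup ↥(twistedE6 K 2))
    (hKtop : ∀ H : Subgroup ↥(twistedE6 K 2), 13 ∣ Nat.card H → 19 ∣ Nat.card H → H = ⊤)
    {a : MulAut ↥(twistedE6 K 2)} (ha : a ≠ 1) : Body a := by
  have : Fact (Nat.Prime 2) := ⟨Nat.prime_two⟩
  have : CharP K 2 := charP_of_card_eq_prime_pow hK
  obtain ⟨φ, hφ, hqq⟩ := TwE6Basic.exists_frob (K := K) (q := 2) Nat.prime_two.isPrimePow hK
  obtain ⟨ω, hω⟩ := exists_omega hK
  exact body_aux hφ hqq hω hK hKtop ha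

/-- **`²E₆(2)`: the row from `hKtop`.** -/
theorem spr_of_ktop {K : Type u} [Field K] [Fintype K] (hK : Fintype.card K = 2 ^ 2)
    (hS : IsSimpleGroup ↥(twistedE6 K 2))
    (hKtop : ∀ H : Subgroup ↥(twistedE6 K 2), 13 ∣ Nat.card H → 19 ∣ Nat.card H → H = ⊤) :
    H424.Spr.Spr ↥(twistedE6 K 2) := fun _ ha => body_all hK hS hKtop ha

end Cfsg.Agent.H891.TE6
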