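import Cfsg.Agent.H891.TE6.Data

/-!
# `²E₆(2)`: the words (helper891)

* `wX` : regular unipotent element `x` of order 16, `wP` : a subregular one, `x' ^ 8 = x_ρ(1)`;
* `wV s z₀ z₁ z₂` : the images of `x ^ 8` in the E-case; `gw X V i j = X^i V X^j V`.
-/

set_option autoImplicit false

namespace Cfsg.Agent.H891.TE6.Eng

open Cfsg Cfsg.Lie

def wX : List (ℕ × ℕ) := [(46, 0)] ++ ([(39, 0)] ++ ([(42, 0), (37, 0)] ++ ([(56, 0), (36, 0)] ++ [(38, 1), (57, 2)])))

def wP : List (ℕ × ℕ) := [(56, 0), (36, 0)] ++ ([(42, 0), (37, 0)] ++ ([(47, 0)] ++ [(43, 1), (40, 2)]))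

def wV (s : ℕ) (z0 z1 z2 : Bool) : List (ℕ × ℕ) :=
  [(5, s), (3, 2 * s % 3)] ++ ((if z0 then [(11, 0)] else []) ++ ((if z1 then [(8, 0)] else []) ++
    (if z2 then [(6, 0)] else [])))

def lX : List Ltr := [l46, l39, l42, l37, l56, l36, l38w1, l57w2]

def lP : List Ltr := [l56, l36, l42, l37, l47, l43w1, l40w2]

def lS : ℕ → List Ltr
  | 0 => [l5, l3]
  | 1 => [l5w1, l3w2]
  | _ => [l5w2, l3w1]

def lV (s : ℕ) (z0 z1 z2 : Bool) : List Ltr :=
  lS s ++ ((if z0 then [l11] else []) ++ ((if z1 then [l8] else []) ++ (if z2 then [l6] else [])))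

/-- `X ^ i V X ^ j V` (without the second half if `j = 0`) -/
def gw (X V : List (ℕ × ℕ)) (i j : ℕ) : List (ℕ × ℕ) :=
  (List.replicate i X).flatten ++ (V ++ (match j with
    | 0 => []
    | j + 1 => (List.replicate (j + 1) X).flatten ++ V))

/-- its action -/
def fgw (fX fV : ℕ → ℕ) (i j : ℕ) (s : ℕ) : ℕ :=
  force (itf fX i s) fun s => force (fV s) (match j with
    | 0 => fun s => s
    | j + 1 => fun s => force (itf fX (j + 1) s) fV)

theorem Acts.gw {D : ChevalleyDatum} {X V : List (ℕ × ℕ)} {fX fV : ℕ → ℕ} (hX : Acts D X fX) (hV : Acts D V fV)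
    (i j : ℕ) : Acts D (gw X V i j) (fgw fX fV i j) := by
  cases j with
  | zero => exact (hX.iter i).append (hV.append Acts.nil)
  | succ j => exact (hX.iter i).append (hV.append ((hX.iter (j + 1)).append hV))

theorem acts_X : Acts chevE6 wX (run M78 lX) := by
  refine Acts.of_ltrs msk78 (by decide +kernel) ?_
  simp only [ltrs, wX, List.cons_append, List.nil_append, List.map_cons, List.map_nil, l46_eq, l39_eq, l42_eq, l37_eq,
    l56_eq, l36_eq, l38w1_eq, l57w2_eq]
  rfl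

theorem acts_P : Acts chevE6 wP (run M78 lP) := by
  refine Acts.of_ltrs msk78 (by decide +kernel) ?_
  simp only [ltrs, wP, List.cons_append, List.nil_append, List.map_cons, List.map_nil, l42_eq, l37_eq,
    l56_eq, l36_eq, l47_eq, l43w1_eq, l40w2_eq]
  rfl

theorem acts_V {s : ℕ} (hs : s < 3) (z0 z1 z2 : Bool) : Acts chevE6 (wV s z0 z1 z2) (run M78 (lV s z0 z1 z2)) := by
  refine Acts.of_ltrs msk78 ?_ ?_
  · revert s z0 z1 z2; decide +kernel
  · interval_cases s <;> cases z0 <;> cases z1 <;> cases z2 <;>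
    simp [ltrs, wV, lV, lS, l5_eq, l3_eq, l5w1_eq, l5w2_eq, l3w1_eq, l3w2_eq, l11_eq, l8_eq, l6_eq]

theorem acts_0 : Acts chevE6 [(0, 0)] (run M78 [l0]) :=
  Acts.of_ltrs msk78 (by decide +kernel) (by simp only [ltrs, List.map_cons, List.map_nil, l0_eq])

theorem acts_1 : Acts chevE6 [(1, 0)] (run M78 [l1]) :=
  Acts.of_ltrs msk78 (by decide +kernel) (by simp only [ltrs, List.map_cons, List.map_nil, l1_eq])

theorem acts_71 : Acts chevE6 [(71, 0)] (run M78 [l71]) :=
  Acts.of_ltrs msk78 (by decide +kernel) (by simp only [ltrs, List.map_cons, List.map_nil, l71_eq])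

theorem acts_E : Acts chevE6 ([(68, 0), (66, 0)] ++ [(71, 0)]) (run M78 [l68, l66, l71]) :=
  Acts.of_ltrs msk78 (by decide +kernel)
    (by simp only [ltrs, List.cons_append, List.nil_append, List.map_cons, List.map_nil, l68_eq, l66_eq, l71_eq])

end Cfsg.Agent.H891.TE6.Eng
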